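import Cfsg.Agent.H897.IF.EightEnd
import Cfsg.Agent.H190.IF.EEight
import Cfsg.Agent.H209.IF.Kill

/-!
# S5719, the row `E₈(q)`, `q` odd (helper351; tables and steps: helper190, helper897, helper176)

* `e8_odd` : `KillE (chevE8.group F)`.
-/

set_option autoImplicit false

namespace Cfsg.Agent.H351.IFE

open CoxeterSystem Cfsg Cfsg.Lie
open Cfsg.Agent.ChevalleyStructure Cfsg.Agent.ChevalleyStructure.CoxeterGeom
  Cfsg.Agent.ChevalleyStructure.CoxeterGeomTypes Cfsg.Agent.Nodes.RGDChev Cfsg.Agent.Nodes.Coroot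
open Cfsg.Agent.KFacts.RgdChevCoord (TT XX)
open Cfsg.Agent.GenExc.Chev (isType_E8)
open Cfsg.Agent.H557

/-- **the row `E₈(q)`, `q` odd** -/
theorem e8_odd (F : Type) [Field F] [Fintype F] (ho : Odd (Fintype.card F))
    (hs : IsSimpleGroup (chevE8.group F)) : H209.Fxy.KillE (chevE8.group F) := by
  rintro A Γ h ⟨t, htA, ht2⟩
  obtain ⟨p, hpp, hpc, hp2⟩ := LrFam.exists_char F ho
  have : Fact p.Prime := ⟨hpp⟩
  obtain ⟨cs, -⟩ : ∃ cs, cs = (CoxeterMatrix.E₈).toCoxeterSystem := ⟨_, rfl⟩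
  have hW : Finite (CoxeterMatrix.E₈).Group := finite_W isType_E8 cs
  have hS : IsSimpleGroup ↥(Lie.chevE8.group F) ∧ ¬ IsMulCommutative ↥(Lie.chevE8.group F) := S1054.result _ (by simp)
  have hna : ∃ a b : ↥(chevE8.group F), a * b ≠ b * a := by
    by_contra hcon
    push Not at hcon
    exact hS.2 ⟨⟨hcon⟩⟩
  have h2 := (LrIso.odd_card (F := F) hp2).2
  have htt : t * t = 1 := by
    rw [← pow_two, ← ht2]
    exact pow_orderOf_eq_one t
  have h1 : t ≠ 1 := by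
    rintro rfl
    rw [orderOf_one] at ht2
    omega
  obtain ⟨z, hz⟩ := H190.IF.exists_inv2 (rgd (K := F) isType_E8 cs p)
    (fun i => H897.IF.hsim isType_E8 cs h2 i) (H897.IF.root_th8 isType_E8 cs)
  have e : H897.IF.th8 = H190.IF.Tab8.toV H190.IF.Tab8.th := H897.IF.eq_th8.1
  have hz' := hz
  rw [e] at hz'
  obtain ⟨y, hy, hzy⟩ := H190.IF.EEight.toral (K := F) hp2
    (fun a b ha hb => H897.IF.trans8 isType_E8 cs ha hb) hz' (H255.IFK.fix_of_IF h hna) htA htt h1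
  exact H897.IF.fund8 isType_E8 cs p (by rw [Nat.card_eq_fintype_card]; exact ho) hz h ⟨y, hy, hzy⟩

end Cfsg.Agent.H351.IFE
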